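import Cfsg.Agent.Lib.ChevBN.Stmts
import Cfsg.Agent.Lib.BNPair.Parabolic
import Cfsg.Agent.Lib.BNPair.Simple
import Cfsg.Agent.Lib.ChevOrder.Chev

/-!
The Bruhat normal form `g = b n u` with `u` in the subgroup generated by the positive root subgroups
that `n` sends into `V`.
-/

set_option autoImplicit false
set_option linter.unusedSectionVars false

namespace Cfsg.Agent.Lib.ChevOrder.BruhatForm

open Cfsg.Lie Cfsg.Agent.Lib.ChevBN.Elem Cfsg.Agent.Lib.ChevBN.Entries Cfsg.Agent.Lib.ChevBN.Table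
open Cfsg.Agent.Lib.ChevBN.Collect Cfsg.Agent.Lib.ChevBN.Rel Cfsg.Agent.Lib.ChevBN.Torus
open Cfsg.Agent.Lib.ChevBN.Monomial Cfsg.Agent.Lib.ChevBN.Pair Cfsg.Agent.Lib.ChevBN.Stmts
open Cfsg.Agent.Lib.BNPair.Basic Cfsg.Agent.Lib.BNPair.Parabolic Cfsg.Agent.Lib.BNPair.Simple
open Cfsg.Agent.Lib.ChevOrder.BNCount Cfsg.Agent.Lib.ChevOrder.Chev

variable {D : ChevalleyDatum} {F : Type*} [Field F] {η : ℕ → ℕ → ℤ}
variable (hR : Sys D F η) (hT : Tbl D)

/-- The positive roots that `n` sends to negative ones (intrinsically). -/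
def Psi (hR : Sys D F η) (n : GL D.Idx F) : Set ℕ :=
  {r | D.IsPosRoot r ∧ ∀ t : F, n * X hR.toAddRel r t * n⁻¹ ∈ D.negUnipotent F}

include hR hT

theorem X_mem_V {r : ℕ} (hr : D.IsNegRoot r) (t : F) :
    X hR.toAddRel r t ∈ D.negUnipotent F := by
  rw [negUnipotent_eq hR.toAddRel]
  exact X_mem_gen _ hr _

theorem X_ne_one {r : ℕ} (hr : D.IsPosRoot r) {t : F} (h : X hR.toAddRel r t = 1) : t = 0 := by
  apply eq_zero_of_X_mem (hA := hR.toAddRel) hT hr
  rw [h]
  exact Subgroup.one_mem _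

theorem gen_Psi_le (n : GL D.Idx F) (p : ℕ) (hp : ∀ r ∈ Psi hR n, r ≠ p) :
    gen hR.toAddRel (Psi hR n) ≤ Yp hR p := by
  apply gen_mono
  intro r hr
  exact ⟨hr.1, hp r hr⟩

/-- Sign of `n' α` when `s` is a right ascent of `n'`. -/
theorem pos_of_ascent {n' : ↥(D.group F)} (hn' : n' ∈ (pair hR hT).N) (i : Fin D.rank)
    (hlen : len (pair hR hT) n' < len (pair hR hT) (n' * ee hR hT i))
    {σ : Equiv.Perm (Fin D.nroots)} (hneg : ∀ s, σ (negF hT s) = negF hT (σ s))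
    (hσ : ∀ s : Fin D.nroots, ∃ κ : F, κ ≠ 0 ∧ ∀ t : F,
      (n' : GL D.Idx F) * X hR.toAddRel s t * (n' : GL D.Idx F)⁻¹ = X hR.toAddRel (σ s) (κ * t)) :
    D.IsPosRoot (σ (alphaR hT i)) := by
  have hp := hT.simple_lt i.2
  rcases hT.pos_or_neg (σ (alphaR hT i)).isLt with h | h
  · exact h
  · exfalso
    set n'' := n' * ee hR hT i with hn''
    have hnN : n'' ∈ (pair hR hT).N :=
      (pair hR hT).N.mul_mem hn' ((pair hR hT).subset (ee_mem hR hT i))
    set x : ↥(D.group F) := ⟨X hR.toAddRel (D.simple i) 1, X_mem_G hR hT hp 1⟩ with hx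
    have hxB : x ∈ (pair hR hT).B :=
      (mem_PB hR hT).2 (U_le_B hR hT (X_mem_U hR hT (hT.simple_pos i i.2) 1))
    have hsx : ee hR hT i * x * (ee hR hT i)⁻¹ ∉ (pair hR hT).B := by
      intro hmem
      have h1 := (mem_PB hR hT).1 hmem
      have h2 : ((ee hR hT i * x * (ee hR hT i)⁻¹ : ↥(D.group F)) : GL D.Idx F) =
          A hR i * X hR.toAddRel (D.simple i) 1 * (A hR i)⁻¹ := rfl
      rw [h2, A_conj_X hR i.2 hp, hT.w_simple i i.2] at h1
      exact X_neg_not_mem_B hR hT (hT.simple_pos i i.2)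
        (mul_ne_zero (eta_ne hR i.2 hp) one_ne_zero) h1
    have hnx : (n''⁻¹)⁻¹ * x * n''⁻¹ ∈ (pair hR hT).B := by
      apply (mem_PB hR hT).2
      have e1 : (((n''⁻¹)⁻¹ * x * n''⁻¹ : ↥(D.group F)) : GL D.Idx F) =
          (n' : GL D.Idx F) * (A hR i * X hR.toAddRel (D.simple i) 1 * (A hR i)⁻¹) *
            (n' : GL D.Idx F)⁻¹ := by
        simp only [hn'', hx, inv_inv, Subgroup.coe_mul, Subgroup.coe_inv, coe_ee, mul_inv_rev]
        group
      rw [e1, A_conj_X hR i.2 hp, hT.w_simple i i.2]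
      obtain ⟨κ, -, h1⟩ := hσ (negF hT (alphaR hT i))
      have e2 : X hR.toAddRel (D.neg (D.simple i)) ((η i (D.simple i) : F) * 1) =
          X hR.toAddRel ((negF hT (alphaR hT i) : Fin D.nroots) : ℕ)
            ((η i (D.simple i) : F) * 1) := rfl
      rw [e2, h1, hneg]
      refine U_le_B hR hT (X_mem_U hR hT ?_ _)
      exact hT.pos_of_neg h
    have h1 := len_lt_of_conj (ee_mem hR hT i) ((pair hR hT).N.inv_mem hnN) hxB hsx hnx
    have e3 : ee hR hT i * n''⁻¹ = n'⁻¹ := by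
      rw [hn'']
      group
    rw [e3, len_inv hn', len_inv hnN] at h1
    omega

/-- The factorisation `U = (U ∩ n⁻¹ U n) U_n⁻`. -/
theorem factor : ∀ (k : ℕ) (n : ↥(D.group F)), n ∈ (pair hR hT).N → len (pair hR hT) n = k →
    ∀ u ∈ D.posUnipotent F, ∃ p ∈ D.posUnipotent F,
      (n : GL D.Idx F) * p * (n : GL D.Idx F)⁻¹ ∈ D.posUnipotent F ∧
      ∃ q ∈ gen hR.toAddRel (Psi hR (n : GL D.Idx F)), u = p * q := by
  intro k
  induction k with
  | zero =>
    intro n hn h0 u hu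
    have h1 := (len_eq_zero_iff hn).1 h0
    have h2 : (n : GL D.Idx F) ∈ D.borelSubgroup F ⊓ D.monomialSubgroup F :=
      ⟨(mem_PB hR hT).1 h1, (mem_PN hR hT).1 hn⟩
    rw [B_inf_N hR hT] at h2
    exact ⟨u, hu, H_norm_U hR hT h2 hu, 1, Subgroup.one_mem _, by simp⟩
  | succ k ih =>
    intro n hn hk u hu
    obtain ⟨s, hs, n', hn', rfl, hk'⟩ := decomp_right hn hk
    obtain ⟨i, rfl⟩ := ee_surj hR hT s hs
    have hp := hT.simple_lt i.2
    have hpos := hT.simple_pos i i.2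
    have hn'G := (mem_PN hR hT).1 hn'
    -- the action of `n'` on the roots
    obtain ⟨σ, hneg, hσ⟩ := N_le_moving hR hT hn'G
    have hpσ := pos_of_ascent hR hT hn' i (by omega) hneg hσ
    -- `α ∉ Ψ(n')`
    have hαΨ : ∀ r ∈ Psi hR (n' : GL D.Idx F), r ≠ D.simple i := by
      rintro r hr rfl
      have h1 := hr.2 1
      obtain ⟨κ, hκ, h2⟩ := hσ (alphaR hT i)
      have h3 := h2 1
      have e0 : X hR.toAddRel (D.simple i) (1 : F) =
          X hR.toAddRel ((alphaR hT i : Fin D.nroots) : ℕ) 1 := rfl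
      rw [e0, h3] at h1
      have h4 : X hR.toAddRel (σ (alphaR hT i)) (κ * 1) ∈
          D.borelSubgroup F ⊓ D.negUnipotent F :=
        ⟨U_le_B hR hT (X_mem_U hR hT hpσ _), h1⟩
      rw [B_inf_V hR hT, Subgroup.mem_bot] at h4
      have h5 := X_ne_one hR hT hpσ h4
      rw [mul_one] at h5
      exact hκ h5
    -- decompose `u`
    obtain ⟨a, ha, t, rfl⟩ := U_decomp hR hT i.2 hu
    have hy' := A_norm_Yp hR hT i.2 ha
    obtain ⟨p, hp1, hp2, q, hq, hy⟩ := ih n' hn' hk' _ (Yp_le_U hR hT _ hy')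
    have hqY : q ∈ Yp hR (D.simple i) := gen_Psi_le hR hT _ _ hαΨ hq
    have hpY : p ∈ Yp hR (D.simple i) := by
      have : p = A hR i * a * (A hR i)⁻¹ * q⁻¹ := by rw [hy]; group
      rw [this]
      exact Subgroup.mul_mem _ hy' (Subgroup.inv_mem _ hqY)
    refine ⟨(A hR i)⁻¹ * p * A hR i, Yp_le_U hR hT _ (A_inv_norm_Yp hR hT i.2 hpY), ?_,
      (A hR i)⁻¹ * q * A hR i * X hR.toAddRel (D.simple i) t, ?_, ?_⟩
    · have e : ((n' * ee hR hT i : ↥(D.group F)) : GL D.Idx F) * ((A hR i)⁻¹ * p * A hR i) *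
          ((n' * ee hR hT i : ↥(D.group F)) : GL D.Idx F)⁻¹ =
          (n' : GL D.Idx F) * p * (n' : GL D.Idx F)⁻¹ := by
        simp only [Subgroup.coe_mul, coe_ee]
        group
      rw [e]
      exact hp2
    · -- the second factor
      refine Subgroup.mul_mem _ ?_ ?_
      · refine gen_induction hR.toAddRel
          (P := fun q => (A hR i)⁻¹ * q * A hR i ∈
            gen hR.toAddRel (Psi hR ((n' * ee hR hT i : ↥(D.group F)) : GL D.Idx F)))
          (by simp) ?_ ?_ hq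
        · intro r hr τ
          have hrl := hr.1.1
          rw [A_inv_conj_X hR hT i.2 hrl]
          refine X_mem_gen _ (Ψ := Psi hR ((n' * ee hR hT i : ↥(D.group F)) : GL D.Idx F))
            (And.intro (hT.w_pos i i.2 r hr.1 (hαΨ r hr)) ?_) _
          intro τ'
          have e : ((n' * ee hR hT i : ↥(D.group F)) : GL D.Idx F) *
              X hR.toAddRel (D.reflectRoot i r) τ' *
              ((n' * ee hR hT i : ↥(D.group F)) : GL D.Idx F)⁻¹ =
              (n' : GL D.Idx F) * (A hR i * X hR.toAddRel (D.reflectRoot i r) τ' * (A hR i)⁻¹) *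
                (n' : GL D.Idx F)⁻¹ := by
            simp only [Subgroup.coe_mul, coe_ee]
            group
          rw [e, A_conj_X hR i.2 (hT.w_lt i i.2 r hrl), hT.w_w i i.2 r hrl]
          exact hr.2 _
        · intro a b ha hb
          have e : (A hR i)⁻¹ * (a * b) * A hR i =
              ((A hR i)⁻¹ * a * A hR i) * ((A hR i)⁻¹ * b * A hR i) := by group
          rw [e]
          exact Subgroup.mul_mem _ ha hb
      · refine X_mem_gen _ (Ψ := Psi hR ((n' * ee hR hT i : ↥(D.group F)) : GL D.Idx F))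
          (And.intro hpos ?_) _
        intro τ
        have e : ((n' * ee hR hT i : ↥(D.group F)) : GL D.Idx F) *
            X hR.toAddRel (D.simple i) τ *
            ((n' * ee hR hT i : ↥(D.group F)) : GL D.Idx F)⁻¹ =
            (n' : GL D.Idx F) * (A hR i * X hR.toAddRel (D.simple i) τ * (A hR i)⁻¹) *
              (n' : GL D.Idx F)⁻¹ := by
          simp only [Subgroup.coe_mul, coe_ee]
          group
        rw [e, A_conj_X hR i.2 hp, hT.w_simple i i.2]
        obtain ⟨κ, -, h1⟩ := hσ (negF hT (alphaR hT i))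
        have e2 : X hR.toAddRel (D.neg (D.simple i)) ((η i (D.simple i) : F) * τ) =
            X hR.toAddRel ((negF hT (alphaR hT i) : Fin D.nroots) : ℕ)
              ((η i (D.simple i) : F) * τ) := rfl
        rw [e2, h1, hneg]
        exact X_mem_V hR hT (hT.neg_of_pos hpσ) _
    · -- the product
      have : A hR i * a * (A hR i)⁻¹ = p * q := hy
      have h2 : a = (A hR i)⁻¹ * p * A hR i * ((A hR i)⁻¹ * q * A hR i) := by
        have e : (A hR i)⁻¹ * p * A hR i * ((A hR i)⁻¹ * q * A hR i) =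
            (A hR i)⁻¹ * (p * q) * A hR i := by group
        rw [e, ← this]
        group
      rw [h2]
      group

/-- Existence of the normal form. -/
theorem exists_form {g : GL D.Idx F} (hg : g ∈ D.group F) :
    ∃ b ∈ D.borelSubgroup F, ∃ n ∈ D.monomialSubgroup F,
      ∃ u ∈ gen hR.toAddRel (Psi hR n), g = b * n * u := by
  obtain ⟨n, hn, hmem⟩ := bruhat_exists (P := pair hR hT) (⟨g, hg⟩ : ↥(D.group F))
  obtain ⟨b₁, hb₁, b₂, hb₂, e⟩ := mem_C.1 hmem
  have hb₂' := (mem_PB hR hT).1 hb₂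
  obtain ⟨u₂, hu₂, h₂, hh₂, e₂⟩ := (mem_B_iff hR hT).1 hb₂'
  have hh₂G : h₂ ∈ D.group F := H_le_G hR hT hh₂
  have hh₂N : (⟨h₂, hh₂G⟩ : ↥(D.group F)) ∈ (pair hR hT).N :=
    (mem_PN hR hT).2 (H_le_N hR hh₂)
  set n₁ : ↥(D.group F) := n * ⟨h₂, hh₂G⟩ with hn₁
  have hn₁N : n₁ ∈ (pair hR hT).N := (pair hR hT).N.mul_mem hn hh₂N
  have hu' : h₂⁻¹ * u₂ * h₂ ∈ D.posUnipotent F := by
    have := H_norm_U hR hT (Subgroup.inv_mem _ hh₂) hu₂
    simpa using this
  obtain ⟨p, hp, hp2, q, hq, e3⟩ := factor hR hT _ n₁ hn₁N rfl _ hu'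
  have hbn : (n₁ : GL D.Idx F) ∈ D.monomialSubgroup F := (mem_PN hR hT).1 hn₁N
  refine ⟨((b₁ : ↥(D.group F)) : GL D.Idx F) * ((n₁ : GL D.Idx F) * p * (n₁ : GL D.Idx F)⁻¹),
    Subgroup.mul_mem _ ((mem_PB hR hT).1 hb₁) (U_le_B hR hT hp2), n₁, hbn, q, hq, ?_⟩
  have e4 : g = ((b₁ : ↥(D.group F)) : GL D.Idx F) * (n : GL D.Idx F) *
      ((b₂ : ↥(D.group F)) : GL D.Idx F) := by
    have := congrArg Subtype.val e
    simpa using this
  rw [e4, e₂]
  have e5 : u₂ * h₂ = h₂ * (p * q) := by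
    rw [← e3]
    group
  rw [e5, hn₁]
  simp only [Subgroup.coe_mul]
  group

/-- The subgroup in the statement of the normal form. -/
theorem closure_eq (n : GL D.Idx F) :
    Subgroup.closure {x : GL D.Idx F | ∃ (r : ℕ) (t : F), D.IsPosRoot r ∧
        (D.rootSubgroup F r).map (MulAut.conj n).toMonoidHom ≤ D.negUnipotent F ∧
        (x : Matrix D.Idx D.Idx F) = D.x F r t} = gen hR.toAddRel (Psi hR n) := by
  apply le_antisymm
  · rw [Subgroup.closure_le]
    rintro x ⟨r, t, hr, hle, hx⟩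
    have hx' := (eq_X hR.toAddRel).1 hx
    refine (Subgroup.mem_carrier).2 ?_
    rw [hx']
    refine X_mem_gen _ (Ψ := Psi hR n) (And.intro hr ?_) _
    intro τ
    apply hle
    refine ⟨X hR.toAddRel r τ, Subgroup.subset_closure ⟨τ, rfl⟩, rfl⟩
  · apply Subgroup.closure_mono
    rintro x ⟨r, hr, t, rfl⟩
    refine ⟨r, t, hr.1, ?_, rfl⟩
    rw [Subgroup.map_le_iff_le_comap]
    unfold ChevalleyDatum.rootSubgroup
    rw [Subgroup.closure_le]
    rintro g ⟨τ, hg⟩
    have hg' := (eq_X hR.toAddRel).1 hg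
    subst hg'
    exact hr.2 τ

theorem gen_Psi_le_U (n : GL D.Idx F) : gen hR.toAddRel (Psi hR n) ≤ D.posUnipotent F := by
  apply gen_le
  intro r hr t
  exact X_mem_U hR hT hr.1 t

theorem conj_gen_Psi_mem_V (n : GL D.Idx F) {u : GL D.Idx F}
    (hu : u ∈ gen hR.toAddRel (Psi hR n)) : n * u * n⁻¹ ∈ D.negUnipotent F := by
  refine gen_induction hR.toAddRel (P := fun u => n * u * n⁻¹ ∈ D.negUnipotent F)
    (by simp) ?_ ?_ hu
  · intro r hr t
    exact hr.2 t
  · intro a b ha hb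
    have e : n * (a * b) * n⁻¹ = (n * a * n⁻¹) * (n * b * n⁻¹) := by group
    rw [e]
    exact Subgroup.mul_mem _ ha hb

/-- Uniqueness of the normal form. -/
theorem form_unique {b b' n n' u u' : GL D.Idx F} (hb : b ∈ D.borelSubgroup F)
    (hb' : b' ∈ D.borelSubgroup F) (hn : n ∈ D.monomialSubgroup F)
    (hn' : n' ∈ D.monomialSubgroup F) (hu : u ∈ gen hR.toAddRel (Psi hR n))
    (hu' : u' ∈ gen hR.toAddRel (Psi hR n')) (e : b * n * u = b' * n' * u') :
    n⁻¹ * n' ∈ D.diagonalSubgroup F ∧ (n = n' → b = b' ∧ u = u') := by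
  constructor
  · have hUB := U_le_B hR hT (F := F)
    have huU := hUB (gen_Psi_le_U hR hT n hu)
    have huU' := hUB (gen_Psi_le_U hR hT n' hu')
    obtain ⟨hBG, hNG, -⟩ := B_N_G hR hT
    let P := pair hR hT
    let nG : ↥(D.group F) := ⟨n, hNG hn⟩
    let nG' : ↥(D.group F) := ⟨n', hNG hn'⟩
    let bG : ↥(D.group F) := ⟨b, hBG hb⟩
    let bG' : ↥(D.group F) := ⟨b', hBG hb'⟩
    let uG : ↥(D.group F) := ⟨u, hBG huU⟩
    let uG' : ↥(D.group F) := ⟨u', hBG huU'⟩
    have hnN : nG ∈ P.N := (mem_PN hR hT).2 hn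
    have hnN' : nG' ∈ P.N := (mem_PN hR hT).2 hn'
    have hbB : bG ∈ P.B := (mem_PB hR hT).2 hb
    have hbB' : bG' ∈ P.B := (mem_PB hR hT).2 hb'
    have huB : uG ∈ P.B := (mem_PB hR hT).2 huU
    have huB' : uG' ∈ P.B := (mem_PB hR hT).2 huU'
    have eG : bG * nG * uG = bG' * nG' * uG' := Subtype.ext e
    have hmem : bG * nG * uG ∈ C P nG := mem_C.2 ⟨_, hbB, _, huB, rfl⟩
    have hmem' : bG * nG * uG ∈ C P nG' := by
      rw [eG]
      exact mem_C.2 ⟨_, hbB', _, huB', rfl⟩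
    have hCC : C P nG = C P nG' := C_eq_of_mem_both hmem hmem'
    have h1 := (C_eq_iff hnN hnN').1 hCC
    have h2 : n⁻¹ * n' ∈ D.borelSubgroup F := (mem_PB hR hT).1 h1
    have h3 : n⁻¹ * n' ∈ D.borelSubgroup F ⊓ D.monomialSubgroup F :=
      ⟨h2, Subgroup.mul_mem _ (Subgroup.inv_mem _ hn) hn'⟩
    rwa [B_inf_N hR hT] at h3
  · rintro rfl
    have h1 : b'⁻¹ * b = n * (u' * u⁻¹) * n⁻¹ := by
      have : b'⁻¹ * b = n * u' * u⁻¹ * n⁻¹ := by
        rw [eq_mul_inv_iff_mul_eq, eq_mul_inv_iff_mul_eq]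
        calc b'⁻¹ * b * n * u = b'⁻¹ * (b * n * u) := by group
          _ = b'⁻¹ * (b' * n * u') := by rw [e]
          _ = n * u' := by group
      rw [this]
      group
    have h2 : n * (u' * u⁻¹) * n⁻¹ ∈ D.borelSubgroup F ⊓ D.negUnipotent F := by
      refine ⟨?_, conj_gen_Psi_mem_V hR hT n (Subgroup.mul_mem _ hu' (Subgroup.inv_mem _ hu))⟩
      rw [← h1]
      exact Subgroup.mul_mem _ (Subgroup.inv_mem _ hb') hb
    rw [B_inf_V hR hT, Subgroup.mem_bot, ← h1] at h2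
    have hbb : b = b' := by
      have := (inv_mul_eq_one).1 h2
      exact this.symm
    refine ⟨hbb, ?_⟩
    subst hbb
    have := mul_left_cancel e
    exact this

end Cfsg.Agent.Lib.ChevOrder.BruhatForm
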