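import Cfsg.Agent.Lib.ChevBN.ConjH
import Cfsg.Agent.Lib.ChevBN.Perfect
import Cfsg.Agent.Lib.ChevBN.Levi
import Cfsg.Agent.Lib.ChevOrder.Level
import Cfsg.Agent.Lib.ChevOrder.TorusCard
import Cfsg.Agent.Lib.Chevalley.Comm

/-!
Centralisers of elements `t` which are central in `U` and whose stabiliser in the Weyl group
fixes dominant roots: `C_G(t)` is generated by `U` and the `X_{-p_i}` with `p_i` orthogonal to
these roots.
-/

set_option autoImplicit false
set_option linter.unusedSectionVars false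

namespace Cfsg.Agent.Lib.ChevOrder.RootCent

open Cfsg.Lie Cfsg.Agent.Lib.ChevBN.Elem Cfsg.Agent.Lib.ChevBN.Entries Cfsg.Agent.Lib.ChevBN.Table
open Cfsg.Agent.Lib.ChevBN.Collect Cfsg.Agent.Lib.ChevBN.Rel Cfsg.Agent.Lib.ChevBN.Torus
open Cfsg.Agent.Lib.ChevBN.Monomial Cfsg.Agent.Lib.ChevBN.Pair
open Cfsg.Agent.Lib.ChevBN.Stmts Cfsg.Agent.Lib.ChevBN.ConjH
open Cfsg.Agent.Lib.BNPair.Basic Cfsg.Agent.Lib.BNPair.Parabolic Cfsg.Agent.Lib.BNPair.CoxeterExchange
open Cfsg.Agent.Lib.ChevOrder.BNCount Cfsg.Agent.Lib.ChevOrder.Chev Cfsg.Agent.Lib.ChevOrder.Level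
open Cfsg.Agent.Lib.ChevBN.Levi (cr_nonneg)
open Cfsg.Agent.Lib.ChevBN.Perfect (X_eq_imp)

variable {D : ChevalleyDatum} {F : Type*} [Field F] {η : ℕ → ℕ → ℤ}
variable (hR : Sys D F η) (hT : Tbl D)

/-- The pairing `⟨s, t^∨⟩`. -/
def pairing (D : ChevalleyDatum) (t s : ℕ) : ℤ := ∑ j ∈ Finset.range D.rank, cr D t j * D.cartan j s

omit hR in
theorem pairing_w (hT : Tbl D) {i : ℕ} (hi : i < D.rank) {t s : ℕ} (ht : t < D.nroots)
    (hs : s < D.nroots) :
    pairing D (D.reflectRoot i t) s = pairing D t (D.reflectRoot i s) := by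
  have h1 := func_wPerm hT hi ((List.range D.rank).map fun j => D.cartan j s) ⟨t, ht⟩
  have e1 : func D ((List.range D.rank).map fun j => D.cartan j s) (Tbl.wPerm hT hi ⟨t, ht⟩) =
      pairing D (D.reflectRoot i t) s := by
    rw [func, pairing]
    apply Finset.sum_congr rfl
    intro j hj
    rw [getD_map_range _ (Finset.mem_range.1 hj), Tbl.wPerm_val, mul_comm]
  have e2 : func D (refl D i ((List.range D.rank).map fun j => D.cartan j s)) ⟨t, ht⟩ =
      pairing D t (D.reflectRoot i s) := by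
    rw [func, pairing]
    apply Finset.sum_congr rfl
    intro j hj
    have hj' := Finset.mem_range.1 hj
    unfold Cfsg.Agent.Lib.ChevOrder.Level.refl
    rw [getD_map_range _ hj', getD_map_range _ hj', getD_map_range _ hi,
      hT.cartan_w j hj' i hi s hs, mul_comm]
  rw [e1] at h1
  rw [h1, e2]

omit hR in
theorem pairing_w_w (hT : Tbl D) {i : ℕ} (hi : i < D.rank) {t s : ℕ} (ht : t < D.nroots)
    (hs : s < D.nroots) :
    pairing D (D.reflectRoot i t) (D.reflectRoot i s) = pairing D t s := by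
  rw [pairing_w hT hi ht (hT.w_lt i hi s hs), hT.w_w i hi s hs]

omit hR in
theorem pairing_simple (hT : Tbl D) {i : ℕ} (hi : i < D.rank) (s : ℕ) :
    pairing D (D.simple i) s = D.cartan i s := by
  have h1 : ∀ j ∈ Finset.range D.rank, cr D (D.simple i) j * D.cartan j s =
      if j = i then D.cartan j s else 0 := by
    intro j hj
    rw [hT.coroot_simple i hi j (Finset.mem_range.1 hj)]
    by_cases h : j = i
    · simp [h]
    · rw [if_neg (Ne.symm h), if_neg h, zero_mul]
  rw [pairing, Finset.sum_congr rfl h1, Finset.sum_ite_eq', if_pos (Finset.mem_range.2 hi)]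

omit hR in
theorem pairing_neg_nonpos (hT : Tbl D) {y r : ℕ} (hy : D.IsPosRoot y)
    (hdom : ∀ j < D.rank, 0 ≤ D.cartan j r) : pairing D (D.neg y) r ≤ 0 := by
  apply Finset.sum_nonpos
  intro j hj
  have hj' := Finset.mem_range.1 hj
  rw [hT.coroot_neg y hy.1 j hj']
  have h1 := cr_nonneg hy j
  have h2 := hdom j hj'
  nlinarith

include hR hT

/-- The Weyl group preserves the pairing. -/
theorem pairing_σW (w : WW (pair hR hT)) (t s : Fin D.nroots) :
    pairing D (σW hR hT w t) (σW hR hT w s) = pairing D t s := by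
  obtain ⟨l, rfl, -⟩ := (setupW hR hT).ex w
  induction l generalizing t s with
  | nil => simp
  | cons i l ih =>
    rw [pr_cons, map_mul, σW_fW, Equiv.Perm.mul_apply, Equiv.Perm.mul_apply, Tbl.wPerm_val,
      Tbl.wPerm_val, pairing_w_w hT i.2 (Fin.isLt _) (Fin.isLt _), ih]

/-- If `w⁻¹` sends `α_i` to a negative root and `w` fixes the dominant root `r`, then `r ⊥ α_i`. -/
theorem cartan_eq_zero (i : Fin D.rank) (x : WW (pair hR hT))
    (h : LL (pair hR hT) x < LL (pair hR hT) (fW hR hT i * x)) {r : Fin D.nroots}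
    (hfix : σW hR hT (fW hR hT i * x) r = r)
    (hdom : ∀ j < D.rank, 0 ≤ D.cartan j r) : D.cartan i r = 0 := by
  apply le_antisymm _ (hdom i i.2)
  have hy := pos_of_len hR hT i x h
  set w := fW hR hT i * x with hw
  have h1 : (σW hR hT w)⁻¹ (alphaR hT i) = negF hT ((σW hR hT x)⁻¹ (alphaR hT i)) := by
    rw [hw, map_mul, σW_fW, mul_inv_rev, Equiv.Perm.mul_apply, ← σW_inv_neg]
    congr 1
    rw [Equiv.Perm.inv_eq_iff_eq]
    apply Fin.ext
    show D.simple i = D.reflectRoot i (D.neg (D.simple i))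
    rw [hT.w_neg i i.2 _ (hT.simple_lt i.2), hT.w_simple i i.2, hT.neg_neg _ (hT.simple_lt i.2)]
  have h2 := pairing_σW hR hT w ((σW hR hT w)⁻¹ (alphaR hT i)) r
  have h0 : σW hR hT w ((σW hR hT w)⁻¹ (alphaR hT i)) = alphaR hT i := by simp
  rw [h0, hfix, h1] at h2
  have h3 : pairing D (alphaR hT i) r = D.cartan i r := pairing_simple hT i.2 _
  rw [h3] at h2
  rw [h2]
  exact pairing_neg_nonpos hT hy hdom

/-- The subgroup generated by `U` and the `X_{-p_i}`, `i ∈ J`. -/
def capK (hR : Sys D F η) (J : Set ℕ) : Subgroup (GL D.Idx F) :=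
  D.posUnipotent F ⊔ gen hR.toAddRel {r | ∃ i ∈ J, i < D.rank ∧ r = D.neg (D.simple i)}

theorem U_le_K (J : Set ℕ) : D.posUnipotent F ≤ capK hR J := le_sup_left

theorem Xneg_mem_K {J : Set ℕ} {i : ℕ} (hi : i ∈ J) (hl : i < D.rank) (τ : F) :
    X hR.toAddRel (D.neg (D.simple i)) τ ∈ capK hR J :=
  (le_sup_right : gen hR.toAddRel _ ≤ capK hR J)
    (X_mem_gen _ (Ψ := {r | ∃ i ∈ J, i < D.rank ∧ r = D.neg (D.simple i)}) ⟨i, hi, hl, rfl⟩ _)

theorem Xpos_mem_K {J : Set ℕ} {i : ℕ} (hl : i < D.rank) (τ : F) :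
    X hR.toAddRel (D.simple i) τ ∈ capK hR J :=
  U_le_K hR hT J (X_mem_U hR hT (hT.simple_pos i hl) τ)

theorem nG_mem_K {J : Set ℕ} {i : ℕ} (hi : i ∈ J) (hl : i < D.rank) (τ : F) :
    nG hR.toAddRel (D.simple i) τ ∈ capK hR J := by
  unfold nG
  exact Subgroup.mul_mem _ (Subgroup.mul_mem _ (Xpos_mem_K hR hT hl τ) (Xneg_mem_K hR hT hi hl _))
    (Xpos_mem_K hR hT hl τ)

theorem hG_mem_K {J : Set ℕ} {i : ℕ} (hi : i ∈ J) (hl : i < D.rank) (τ : F) :
    hG hR.toAddRel (D.simple i) τ ∈ capK hR J := by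
  unfold hG
  exact Subgroup.mul_mem _ (nG_mem_K hR hT hi hl τ) (nG_mem_K hR hT hi hl _)

theorem A_mem_K {J : Set ℕ} {i : ℕ} (hi : i ∈ J) (hl : i < D.rank) : A hR i ∈ capK hR J :=
  nG_mem_K hR hT hi hl 1

theorem K_le_G (J : Set ℕ) : capK hR J ≤ D.group F := by
  refine sup_le (U_le_G hR hT) ?_
  apply gen_le
  rintro r ⟨i, -, hl, rfl⟩ t
  exact X_mem_G hR hT (hT.neg_lt (hT.simple_lt hl)) t

/-- Generators of `K` centralising `t` give that `K` centralises `t`. -/
theorem K_le_cent {J : Set ℕ} {t : GL D.Idx F}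
    (hU : ∀ r, D.IsPosRoot r → ∀ τ : F, X hR.toAddRel r τ * t = t * X hR.toAddRel r τ)
    (hJ : ∀ i ∈ J, i < D.rank → ∀ τ : F,
      X hR.toAddRel (D.neg (D.simple i)) τ * t = t * X hR.toAddRel (D.neg (D.simple i)) τ) :
    capK hR J ≤ Subgroup.centralizer {t} := by
  refine sup_le ?_ ?_
  · rw [posUnipotent_eq hR.toAddRel]
    apply gen_le
    intro r hr τ
    rw [Subgroup.mem_centralizer_iff]
    rintro _ rfl
    exact (hU r hr τ).symm
  · apply gen_le
    rintro r ⟨i, hi, hl, rfl⟩ τ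
    rw [Subgroup.mem_centralizer_iff]
    rintro _ rfl
    exact (hJ i hi hl τ).symm

/-- Elements of `N` centralising `t`. -/
theorem N_cent_mem {J : Set ℕ} {t : GL D.Idx F}
    (hU : ∀ r, D.IsPosRoot r → ∀ τ : F, X hR.toAddRel r τ * t = t * X hR.toAddRel r τ)
    (hJ : ∀ i ∈ J, i < D.rank → ∀ τ : F,
      X hR.toAddRel (D.neg (D.simple i)) τ * t = t * X hR.toAddRel (D.neg (D.simple i)) τ)
    (hN : ∀ w : WW (pair hR hT), ∀ n : ↥(pair hR hT).N, QuotientGroup.mk n = w →
      ((n : ↥(D.group F)) : GL D.Idx F) * t = t * ((n : ↥(D.group F)) : GL D.Idx F) →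
      ∀ i : Fin D.rank, ∀ x : WW (pair hR hT), w = fW hR hT i * x →
        LL (pair hR hT) x < LL (pair hR hT) w → (i : ℕ) ∈ J)
    (hH : ∀ h ∈ D.diagonalSubgroup F, h * t = t * h → h ∈ capK hR J) :
    ∀ (k : ℕ) (n : ↥(D.group F)), n ∈ (pair hR hT).N → len (pair hR hT) n = k →
      (n : GL D.Idx F) * t = t * (n : GL D.Idx F) → (n : GL D.Idx F) ∈ capK hR J := by
  intro k
  induction k with
  | zero =>
    intro n hn h0 hc
    have h1 := (len_eq_zero_iff hn).1 h0
    have h2 : (n : GL D.Idx F) ∈ D.borelSubgroup F ⊓ D.monomialSubgroup F :=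
      ⟨(mem_PB hR hT).1 h1, (mem_PN hR hT).1 hn⟩
    rw [B_inf_N hR hT] at h2
    exact hH _ h2 hc
  | succ k ih =>
    intro n hn hk hc
    obtain ⟨s, hs, n', hn', rfl, hk'⟩ := decomp_left hn hk
    obtain ⟨i, rfl⟩ := ee_surj hR hT s hs
    -- the index `i` lies in `J`
    have hiJ : (i : ℕ) ∈ J := by
      refine hN (fW hR hT i * QuotientGroup.mk (⟨n', hn'⟩ : ↥(pair hR hT).N))
        ⟨ee hR hT i * n', hn⟩ ?_ hc i _ rfl ?_
      · rfl
      · have e : fW hR hT i * QuotientGroup.mk (⟨n', hn'⟩ : ↥(pair hR hT).N) =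
            QuotientGroup.mk (⟨ee hR hT i * n', hn⟩ : ↥(pair hR hT).N) := rfl
        rw [e, LL_mk, LL_mk]
        change len (pair hR hT) n' < len (pair hR hT) (ee hR hT i * n')
        omega
    have hAK := A_mem_K hR hT hiJ i.2
    -- `A_i` centralises `t`
    have hAt : A hR i * t = t * A hR i := by
      have := K_le_cent hR hT hU hJ hAK
      rw [Subgroup.mem_centralizer_iff] at this
      exact (this t rfl).symm
    have hc' : (n' : GL D.Idx F) * t = t * (n' : GL D.Idx F) := by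
      have e1 : ((ee hR hT i * n' : ↥(D.group F)) : GL D.Idx F) = A hR i * (n' : GL D.Idx F) := rfl
      rw [e1] at hc
      have h3 : A hR i * ((n' : GL D.Idx F) * t) = A hR i * (t * (n' : GL D.Idx F)) := by
        calc A hR i * ((n' : GL D.Idx F) * t) = A hR i * (n' : GL D.Idx F) * t := by group
          _ = t * (A hR i * (n' : GL D.Idx F)) := hc
          _ = (t * A hR i) * (n' : GL D.Idx F) := by group
          _ = (A hR i * t) * (n' : GL D.Idx F) := by rw [hAt]
          _ = A hR i * (t * (n' : GL D.Idx F)) := by group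
      exact mul_left_cancel h3
    have := ih n' hn' hk' hc'
    exact Subgroup.mul_mem _ hAK this

/-- The centraliser of `t`. -/
theorem cent_eq {J : Set ℕ} {t : GL D.Idx F}
    (hU : ∀ r, D.IsPosRoot r → ∀ τ : F, X hR.toAddRel r τ * t = t * X hR.toAddRel r τ)
    (hJ : ∀ i ∈ J, i < D.rank → ∀ τ : F,
      X hR.toAddRel (D.neg (D.simple i)) τ * t = t * X hR.toAddRel (D.neg (D.simple i)) τ)
    (hN : ∀ w : WW (pair hR hT), ∀ n : ↥(pair hR hT).N, QuotientGroup.mk n = w →
      ((n : ↥(D.group F)) : GL D.Idx F) * t = t * ((n : ↥(D.group F)) : GL D.Idx F) →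
      ∀ i : Fin D.rank, ∀ x : WW (pair hR hT), w = fW hR hT i * x →
        LL (pair hR hT) x < LL (pair hR hT) w → (i : ℕ) ∈ J)
    (hH : ∀ h ∈ D.diagonalSubgroup F, h * t = t * h → h ∈ capK hR J) :
    D.group F ⊓ Subgroup.centralizer {t} = capK hR J := by
  apply le_antisymm
  · rintro g ⟨hg, hgc⟩
    have hgc' : g ∈ Subgroup.centralizer {t} := hgc
    rw [Subgroup.mem_centralizer_iff] at hgc'
    have hgt : g * t = t * g := (hgc' t rfl).symm
    have hUc : D.posUnipotent F ≤ Subgroup.centralizer {t} :=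
      le_trans (U_le_K hR hT J) (K_le_cent hR hT hU hJ)
    have huc : ∀ u ∈ D.posUnipotent F, u * t = t * u := by
      intro u hu
      have := hUc hu
      rw [Subgroup.mem_centralizer_iff] at this
      exact (this t rfl).symm
    obtain ⟨n, hn, hmem⟩ := bruhat_exists (P := pair hR hT) (⟨g, hg⟩ : ↥(D.group F))
    obtain ⟨b₁, hb₁, b₂, hb₂, e⟩ := mem_C.1 hmem
    have hb₁' := (mem_PB hR hT).1 hb₁
    have hb₂' := (mem_PB hR hT).1 hb₂
    obtain ⟨u₁, hu₁, h₁, hh₁, e₁⟩ := (mem_B_iff hR hT).1 hb₁'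
    obtain ⟨u₂, hu₂, h₂, hh₂, e₂⟩ := (mem_B_iff hR hT).1 hb₂'
    have hnN := (mem_PN hR hT).1 hn
    set u₃ := h₂⁻¹ * u₂ * h₂ with hu₃
    have hu₃U : u₃ ∈ D.posUnipotent F := by
      have := H_norm_U hR hT (Subgroup.inv_mem _ hh₂) hu₂
      simpa using this
    set m : GL D.Idx F := h₁ * (n : GL D.Idx F) * h₂ with hm
    have hmN : m ∈ D.monomialSubgroup F :=
      Subgroup.mul_mem _ (Subgroup.mul_mem _ (H_le_N hR hh₁) hnN) (H_le_N hR hh₂)
    have eg : g = u₁ * m * u₃ := by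
      have e4 : g = ((b₁ : ↥(D.group F)) : GL D.Idx F) * (n : GL D.Idx F) *
          ((b₂ : ↥(D.group F)) : GL D.Idx F) := by
        have := congrArg Subtype.val e
        simpa using this
      rw [e4, e₁, e₂, hm, hu₃]
      group
    have hmt : m * t = t * m := by
      have h1 := huc _ hu₁
      have h2 := huc _ hu₃U
      rw [eg] at hgt
      have h3 : u₁ * (m * t) * u₃ = u₁ * (t * m) * u₃ := by
        calc u₁ * (m * t) * u₃ = u₁ * m * (t * u₃) := by group
          _ = u₁ * m * (u₃ * t) := by rw [h2]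
          _ = u₁ * m * u₃ * t := by group
          _ = t * (u₁ * m * u₃) := hgt
          _ = (t * u₁) * m * u₃ := by group
          _ = (u₁ * t) * m * u₃ := by rw [h1]
          _ = u₁ * (t * m) * u₃ := by group
      exact mul_left_cancel (mul_right_cancel h3)
    have hmG : m ∈ D.group F := N_le_G hR hT hmN
    have hmK := N_cent_mem hR hT hU hJ hN hH _ (⟨m, hmG⟩ : ↥(D.group F))
      ((mem_PN hR hT).2 hmN) rfl hmt
    rw [eg]
    exact Subgroup.mul_mem _ (Subgroup.mul_mem _ (U_le_K hR hT J hu₁) hmK) (U_le_K hR hT J hu₃U)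
  · intro g hg
    exact ⟨K_le_G hR hT J hg, K_le_cent hR hT hU hJ hg⟩

/-- `w` fixes `r` when an element of `N` in the class of `w` centralises a non-trivial `X_r(c)`. -/
theorem σW_fix_of_comm {c : F} (hc : c ≠ 0) {r : Fin D.nroots} (n : ↥(pair hR hT).N)
    (hcomm : ((n : ↥(D.group F)) : GL D.Idx F) * X hR.toAddRel r c =
      X hR.toAddRel r c * ((n : ↥(D.group F)) : GL D.Idx F)) :
    σW hR hT (QuotientGroup.mk n) r = r := by
  have hnN := (mem_PN hR hT).1 n.2
  obtain ⟨κ, hκ, h⟩ := conj_of_mem_N hR hT hnN (mem_mono_of_N hR hT hnN) r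
  have h1 := h c
  have h2 : ((n : ↥(D.group F)) : GL D.Idx F) * X hR.toAddRel r c *
      ((n : ↥(D.group F)) : GL D.Idx F)⁻¹ = X hR.toAddRel r c := by
    rw [hcomm]
    group
  rw [h2] at h1
  by_contra hne
  have hne' : (r : ℕ) ≠ (σW hR hT (QuotientGroup.mk n) r : ℕ) := fun h3 => hne (Fin.ext h3.symm)
  have := X_eq_imp hR hT r.isLt (σW hR hT (QuotientGroup.mk n) r).isLt hne' h1
  exact hc this

/-- The torus part for a single root with coefficient `1` at `j₀`. -/
theorem H_cent_mem {J : Set ℕ} {r : ℕ} (hr : r < D.nroots) {c : F} (hc : c ≠ 0) {j₀ : ℕ}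
    (h1 : D.cartan j₀ r = 1) (h0 : ∀ j < D.rank, j ≠ j₀ → D.cartan j r = 0)
    (hJ : ∀ j < D.rank, j ≠ j₀ → j ∈ J) (hj₀ : j₀ < D.rank) {h : GL D.Idx F}
    (hh : h ∈ D.diagonalSubgroup F)
    (hcomm : h * X hR.toAddRel r c = X hR.toAddRel r c * h) : h ∈ capK hR J := by
  rw [diagonal_eq hR hT, mem_torus] at hh
  obtain ⟨a, ha, rfl⟩ := hh
  have h2 := hP_conj hR ha hr c
  rw [hcomm, mul_inv_cancel_right] at h2
  -- the character value
  have h3 : chi D a r = a j₀ := by
    rw [Cfsg.Agent.Lib.ChevOrder.TorusCard.chi_eq]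
    rw [Finset.prod_eq_single j₀]
    · rw [h1, zpow_one]
    · intro j hj hne
      rw [h0 j (Finset.mem_range.1 hj) hne, zpow_zero]
    · intro hn
      exact absurd (Finset.mem_range.2 hj₀) hn
  have h4 : a j₀ = 1 := by
    rw [← h3]
    have h5 := congrArg (fun g : GL D.Idx F => g) h2
    by_contra hne
    have h6 : X hR.toAddRel r (chi D a r * c) * (X hR.toAddRel r c)⁻¹ = 1 := by
      rw [← h2]
      group
    rw [X_inv, X_mul] at h6
    have h7 : (chi D a r * c + -c) = 0 := by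
      rcases hT.pos_or_neg hr with hp | hp
      · exact eq_zero_of_X_mem hT hp (by rw [h6]; exact Subgroup.one_mem _)
      · by_contra hne2
        have h8 := X_eq_imp hR hT hr (hT.neg_lt hr) (Ne.symm (hT.pos_ne_neg (hT.pos_of_neg hp) hp))
          (τ := chi D a r * c + -c) (τ' := 0) (by rw [h6, X_zero])
        exact hne2 h8
    apply hne
    have h9 : (chi D a r - 1) * c = 0 := by
      have : (chi D a r - 1) * c = chi D a r * c + -c := by ring
      rw [this, h7]
    rcases mul_eq_zero.1 h9 with h10 | h10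
    · exact sub_eq_zero.1 h10
    · exact absurd h10 hc
  -- the product
  unfold hP
  apply Subgroup.list_prod_mem
  intro x hx
  obtain ⟨j, hj, rfl⟩ := List.mem_map.1 hx
  have hj' := List.mem_range.1 hj
  by_cases hjj : j = j₀
  · subst hjj
    rw [h4]
    have : hG hR.toAddRel (D.simple j) (1 : F) = 1 := by
      rw [hG, nG_neg_one]
      simp
    rw [this]
    exact Subgroup.one_mem _
  · exact hG_mem_K hR hT (hJ j hj' hjj) hj' _

/-- The centraliser of a non-trivial element of the root subgroup of a dominant root. -/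
theorem cent_root {r : ℕ} (hr : r < D.nroots) {c : F} (hc : c ≠ 0) {j₀ : ℕ} (hj₀ : j₀ < D.rank)
    (h1 : D.cartan j₀ r = 1) (h0 : ∀ j < D.rank, j ≠ j₀ → D.cartan j r = 0)
    (hU : ∀ s, D.IsPosRoot s → ∀ τ : F, X hR.toAddRel s τ * X hR.toAddRel r c =
      X hR.toAddRel r c * X hR.toAddRel s τ)
    (hJ : ∀ j < D.rank, j ≠ j₀ → ∀ τ : F,
      X hR.toAddRel (D.neg (D.simple j)) τ * X hR.toAddRel r c =
        X hR.toAddRel r c * X hR.toAddRel (D.neg (D.simple j)) τ) :
    D.group F ⊓ Subgroup.centralizer {X hR.toAddRel r c} = capK hR {j | j < D.rank ∧ j ≠ j₀} := by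
  have hdom : ∀ j < D.rank, 0 ≤ D.cartan j r := by
    intro j hj
    by_cases h : j = j₀
    · rw [h, h1]
      exact zero_le_one
    · rw [h0 j hj h]
  apply cent_eq hR hT hU
  · rintro i ⟨hi, hne⟩ -
    exact hJ i hi hne
  · rintro w n rfl hn i x hw hlt
    have hfix := σW_fix_of_comm hR hT hc (r := ⟨r, hr⟩) n hn
    rw [hw] at hlt hfix
    have h2 := cartan_eq_zero hR hT i x hlt hfix hdom
    refine And.intro i.2 ?_
    intro h3
    rw [h3] at h2
    change D.cartan j₀ r = 0 at h2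
    rw [h1] at h2
    exact one_ne_zero h2
  · intro h hh hcomm
    exact H_cent_mem hR hT (J := {j | j < D.rank ∧ j ≠ j₀}) hr hc h1 h0
      (fun j hj hne => And.intro hj hne) hj₀ hh hcomm

omit hT in
/-- Commuting of root elements from the vanishing of all commutator terms. -/
theorem X_comm_of_terms {r s : ℕ} (hcomm : Cfsg.Agent.Lib.Chevalley.Comm.CommP D F r s)
    (hz : ∀ c ∈ D.commTerms r s, ((c.2.1 : ℤ) : F) = 0) (t u : F) :
    X hR.toAddRel s u * X hR.toAddRel r t = X hR.toAddRel r t * X hR.toAddRel s u := by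
  apply Units.ext
  simp only [Units.val_mul, coe_X]
  rw [hcomm t u]
  have key : ∀ l : List (ℕ × ℤ × ℕ × ℕ), (∀ c ∈ l, ((c.2.1 : ℤ) : F) = 0) →
      D.wordMat F (l.map fun c => (c.1, (c.2.1 : F) * (-t) ^ c.2.2.1 * u ^ c.2.2.2)) = 1 := by
    intro l
    induction l with
    | nil =>
      intro _
      exact Cfsg.Agent.Lib.Chevalley.Comm.wordMat_nil D
    | cons a l ih =>
      intro hl
      have h1 := hl a (by simp)
      have h2 := ih (fun c hc => hl c (by simp [hc]))
      rw [List.map_cons, Cfsg.Agent.Lib.Chevalley.Comm.wordMat_cons D, h2, h1]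
      simp [x_zero hR.toAddRel]
  have : D.wordMat F (D.commWord F r s t u) = 1 := key _ hz
  rw [this, mul_one]

/-- The check for the highest-root computation in characteristic 2. -/
def checkEven (D : ChevalleyDatum) (r j₀ : ℕ) : Bool :=
  decide (r < D.nroots) && decide (j₀ < D.rank) && decide (D.cartan j₀ r = 1) &&
    (List.range D.rank).all (fun j => j == j₀ || D.cartan j r == 0) &&
    D.posRoots.all (fun s => s == r || (s != D.neg r &&
      (D.commTerms r s).all (fun c => c.2.1 % 2 == 0))) &&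
    (List.range D.rank).all (fun j => j == j₀ || (D.neg (D.simple j) != r &&
      D.neg (D.simple j) != D.neg r &&
      (D.commTerms r (D.neg (D.simple j))).all (fun c => c.2.1 % 2 == 0)))

omit hR hT in
theorem commTerm_zero {F : Type*} [Field F] [CharP F 2] {a : ℤ} (h : (a % 2 == 0) = true) :
    ((a : ℤ) : F) = 0 := by
  have h1 : a % 2 = 0 := by simpa using h
  exact (CharP.intCast_eq_zero_iff F 2 a).2 (Int.dvd_of_emod_eq_zero h1)

/-- Centraliser of a root element of a dominant root, in characteristic 2. -/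
theorem cent_even [CharP F 2]
    (hC : ∀ r < D.nroots, ∀ s < D.nroots, s ≠ r → s ≠ D.neg r →
      Cfsg.Agent.Lib.Chevalley.Comm.CommP D F r s)
    {r j₀ : ℕ} (hchk : checkEven D r j₀ = true) {c : F} (hc : c ≠ 0) :
    D.group F ⊓ Subgroup.centralizer {X hR.toAddRel r c} = capK hR {j | j < D.rank ∧ j ≠ j₀} := by
  simp only [checkEven, Bool.and_eq_true, decide_eq_true_eq, List.all_eq_true, Bool.or_eq_true,
    beq_iff_eq, bne_iff_ne, ne_eq] at hchk
  obtain ⟨⟨⟨⟨⟨hr, hj₀⟩, h1⟩, h0⟩, hp⟩, hn⟩ := hchk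
  refine cent_root hR hT hr hc hj₀ h1 ?_ ?_ ?_
  · intro j hj hne
    rcases h0 j (List.mem_range.2 hj) with h | h
    · exact absurd h hne
    · exact h
  · intro s hs τ
    by_cases h : s = r
    · subst h
      rw [X_mul, X_mul, add_comm]
    · rcases hp s (mem_posRoots.2 hs) with h' | ⟨h2, h3⟩
      · exact absurd h' h
      · exact X_comm_of_terms hR (hC r hr s hs.1 h h2)
          (fun c hc => commTerm_zero (by simpa using h3 c hc)) _ _
  · intro j hj hne τ
    rcases hn j (List.mem_range.2 hj) with h | ⟨⟨h2, h3⟩, h4⟩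
    · exact absurd h hne
    · exact X_comm_of_terms hR
        (hC r hr _ (hT.neg_lt (hT.simple_lt hj)) h2 h3)
        (fun c hc => commTerm_zero (by simpa using h4 c hc)) _ _

/-- The list `L` is the list of the negatives of the fundamental roots other than `j₀`. -/
def checkList (D : ChevalleyDatum) (j₀ : ℕ) (L : List ℕ) : Bool :=
  L.all (fun s => (List.range D.rank).any (fun j => j != j₀ && s == D.neg (D.simple j))) &&
    (List.range D.rank).all (fun j => j == j₀ || L.contains (D.neg (D.simple j)))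

omit hR hT in
theorem mem_of_checkList {j₀ : ℕ} {L : List ℕ} (h : checkList D j₀ L = true) (s : ℕ) :
    s ∈ L ↔ ∃ i ∈ {j | j < D.rank ∧ j ≠ j₀}, i < D.rank ∧ s = D.neg (D.simple i) := by
  simp only [checkList, Bool.and_eq_true, List.all_eq_true, List.any_eq_true, Bool.or_eq_true,
    beq_iff_eq, bne_iff_ne, ne_eq, List.mem_range, List.contains_iff_mem] at h
  obtain ⟨h1, h2⟩ := h
  constructor
  · intro hs
    obtain ⟨j, hj, hne, e⟩ := h1 s hs
    exact ⟨j, ⟨hj, hne⟩, hj, e⟩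
  · rintro ⟨i, ⟨hi, hne⟩, -, rfl⟩
    rcases h2 i hi with h3 | h3
    · exact absurd h3 hne
    · exact h3

/-- The form of the theorem with a list of roots. -/
theorem cent_even_list [CharP F 2]
    (hC : ∀ r < D.nroots, ∀ s < D.nroots, s ≠ r → s ≠ D.neg r →
      Cfsg.Agent.Lib.Chevalley.Comm.CommP D F r s)
    {r j₀ : ℕ} (hchk : checkEven D r j₀ = true) {L : List ℕ} (hL : checkList D j₀ L = true)
    {t : GL D.Idx F} (ht : (t : Matrix D.Idx D.Idx F) = D.x F r 1) :
    D.group F ⊓ Subgroup.centralizer {t} = D.posUnipotent F ⊔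
      Subgroup.closure {g : GL D.Idx F | ∃ s ∈ L, ∃ c : F, (g : Matrix D.Idx D.Idx F) = D.x F s c} := by
  have ht' := (eq_X hR.toAddRel).1 ht
  subst ht'
  rw [cent_even hR hT hC hchk one_ne_zero, capK]
  congr 1
  have e : {g : GL D.Idx F | ∃ s ∈ L, ∃ c : F, (g : Matrix D.Idx D.Idx F) = D.x F s c} =
      {g | ∃ r ∈ {r | ∃ i ∈ {j | j < D.rank ∧ j ≠ j₀}, i < D.rank ∧ r = D.neg (D.simple i)},
        ∃ t : F, g = X hR.toAddRel r t} := by
    ext g
    constructor
    · rintro ⟨s, hs, c, hg⟩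
      exact ⟨s, (mem_of_checkList hL s).1 hs, c, (eq_X hR.toAddRel).1 hg⟩
    · rintro ⟨s, hs, c, hg⟩
      exact ⟨s, (mem_of_checkList hL s).2 hs, c, (eq_X hR.toAddRel).2 hg⟩
  rw [e]
  rfl

end Cfsg.Agent.Lib.ChevOrder.RootCent
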