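import Cfsg.Agent.Lib.ChevOrder.RootCent
import Cfsg.Agent.Lib.ChevBN.Opp

/-!
Two conjugates of the root subgroup of a dominant root, central in `U`, generate a `2`-group or a
conjugate of `⟨X_r, X_{-r}⟩`.
-/

set_option autoImplicit false
set_option linter.unusedSectionVars false

namespace Cfsg.Agent.Lib.ChevOrder.RootPair

open Cfsg.Lie Cfsg.Agent.Lib.ChevBN.Elem Cfsg.Agent.Lib.ChevBN.Entries Cfsg.Agent.Lib.ChevBN.Table
open Cfsg.Agent.Lib.ChevBN.Collect Cfsg.Agent.Lib.ChevBN.Rel Cfsg.Agent.Lib.ChevBN.Torus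
open Cfsg.Agent.Lib.ChevBN.Monomial Cfsg.Agent.Lib.ChevBN.Pair
open Cfsg.Agent.Lib.ChevBN.Stmts Cfsg.Agent.Lib.ChevBN.ConjH Cfsg.Agent.Lib.ChevBN.Opp
open Cfsg.Agent.Lib.BNPair.Basic Cfsg.Agent.Lib.BNPair.Parabolic
open Cfsg.Agent.Lib.ChevOrder.BNCount Cfsg.Agent.Lib.ChevOrder.Chev
open Cfsg.Agent.Lib.ChevOrder.RootCent

variable {D : ChevalleyDatum} {F : Type*} [Field F] {η : ℕ → ℕ → ℤ}
variable (hR : Sys D F η) (hT : Tbl D)

omit [Field F] in
/-- A finite field of characteristic `2` has `2 ^ f` elements. -/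
theorem card_two_pow {F : Type*} [Field F] [Finite F] [CharP F 2] : ∃ f : ℕ, Nat.card F = 2 ^ f := by
  have : Fintype F := Fintype.ofFinite F
  have : Fact (Nat.Prime 2) := ⟨Nat.prime_two⟩
  obtain ⟨n, hp, hn⟩ := FiniteField.card F 2
  exact ⟨n, by rw [Nat.card_eq_fintype_card, hn]⟩

/-- `conj g` on subgroups of `GL`. -/
abbrev cj (g : GL D.Idx F) : GL D.Idx F →* GL D.Idx F := (MulAut.conj g).toMonoidHom

omit hT in
theorem map_cj_gen_singleton {n : GL D.Idx F} {r s : ℕ} {κ : F} (hκ : κ ≠ 0)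
    (h : ∀ t : F, n * X hR.toAddRel r t * n⁻¹ = X hR.toAddRel s (κ * t)) :
    (D.rootSubgroup F r).map (cj n) = D.rootSubgroup F s := by
  rw [rootSubgroup_eq hR.toAddRel, rootSubgroup_eq hR.toAddRel]
  apply le_antisymm
  · rw [Subgroup.map_le_iff_le_comap]
    apply gen_le
    intro a ha t
    rw [Set.mem_singleton_iff] at ha
    rw [ha, Subgroup.mem_comap, MulEquiv.coe_toMonoidHom, MulAut.conj_apply, h t]
    exact X_mem_gen hR.toAddRel (Set.mem_singleton s) _
  · apply gen_le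
    intro a ha t
    rw [Set.mem_singleton_iff] at ha
    rw [ha]
    refine ⟨X hR.toAddRel r (κ⁻¹ * t), X_mem_gen hR.toAddRel (Set.mem_singleton r) _, ?_⟩
    rw [MulEquiv.coe_toMonoidHom, MulAut.conj_apply, h, mul_inv_cancel_left₀ hκ]

include hR hT

/-- A Borel element normalises the root subgroup of a root whose root elements commute with `U`. -/
theorem B_map_X {r : ℕ} (hr : r < D.nroots)
    (hU : ∀ s, D.IsPosRoot s → ∀ τ c : F, X hR.toAddRel s τ * X hR.toAddRel r c =
      X hR.toAddRel r c * X hR.toAddRel s τ)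
    {b : GL D.Idx F} (hb : b ∈ D.borelSubgroup F) :
    (D.rootSubgroup F r).map (cj b) = D.rootSubgroup F r := by
  obtain ⟨u, hu, h, hh, rfl⟩ := (mem_B_iff hR hT).1 hb
  -- the unipotent part centralises
  have hUc : ∀ c : F, u * X hR.toAddRel r c = X hR.toAddRel r c * u := by
    intro c
    have hle : D.posUnipotent F ≤ Subgroup.centralizer {X hR.toAddRel r c} := by
      rw [posUnipotent_eq hR.toAddRel]
      apply gen_le
      intro s hs τ
      rw [Subgroup.mem_centralizer_iff]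
      rintro _ rfl
      exact (hU s hs τ c).symm
    have := hle hu
    rw [Subgroup.mem_centralizer_iff] at this
    exact (this _ rfl).symm
  rw [diagonal_eq hR hT, mem_torus] at hh
  obtain ⟨a, ha, rfl⟩ := hh
  apply map_cj_gen_singleton hR (κ := chi D a r) (chi_ne_zero ha r)
  intro t
  have e : u * hP hR a * X hR.toAddRel r t * (u * hP hR a)⁻¹ =
      u * (hP hR a * X hR.toAddRel r t * (hP hR a)⁻¹) * u⁻¹ := by group
  rw [e, hP_conj hR ha hr, hUc]
  group

/-- The main dichotomy. -/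
theorem dichotomy [Finite F] [CharP F 2] {r r₀ : ℕ} (hr : r < D.nroots) (hr₀ : D.neg r = r₀)
    (hU : ∀ s, D.IsPosRoot s → ∀ τ c : F, X hR.toAddRel s τ * X hR.toAddRel r c =
      X hR.toAddRel r c * X hR.toAddRel s τ)
    (hw : ∀ s < D.nroots, s ≠ D.neg r → ∃ l : List ℕ, (∀ i ∈ l, i < D.rank) ∧
      D.IsPosRoot (l.foldr D.reflectRoot r) ∧ D.IsPosRoot (l.foldr D.reflectRoot s))
    {g : GL D.Idx F} (hg : g ∈ D.group F) :
    IsPGroup 2 ↥(D.rootSubgroup F r ⊔ (D.rootSubgroup F r).map (MulAut.conj g).toMonoidHom) ∨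
    ∃ h ∈ D.group F,
      (D.rootSubgroup F r ⊔ (D.rootSubgroup F r).map (MulAut.conj g).toMonoidHom).map
        (MulAut.conj h).toMonoidHom = D.rootSubgroup F r ⊔ D.rootSubgroup F r₀ := by
  -- Bruhat decomposition of `g`
  obtain ⟨n, hn, hmem⟩ := bruhat_exists (P := pair hR hT) (⟨g, hg⟩ : ↥(D.group F))
  obtain ⟨b₁, hb₁, b₂, hb₂, e⟩ := mem_C.1 hmem
  have hb₁' := (mem_PB hR hT).1 hb₁
  have hb₂' := (mem_PB hR hT).1 hb₂
  have hnN := (mem_PN hR hT).1 hn
  have e4 : g = ((b₁ : ↥(D.group F)) : GL D.Idx F) * (n : GL D.Idx F) *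
      ((b₂ : ↥(D.group F)) : GL D.Idx F) := by
    have := congrArg Subtype.val e
    simpa using this
  set B₁ : GL D.Idx F := ((b₁ : ↥(D.group F)) : GL D.Idx F) with hB₁
  set B₂ : GL D.Idx F := ((b₂ : ↥(D.group F)) : GL D.Idx F) with hB₂
  set N₀ : GL D.Idx F := (n : GL D.Idx F) with hN₀
  obtain ⟨κ, hκ, hconj⟩ := conj_of_mem_N hR hT hnN (mem_mono_of_N hR hT hnN) ⟨r, hr⟩
  set s : Fin D.nroots := permOf ⟨N₀, mem_mono_of_N hR hT hnN⟩ ⟨r, hr⟩ with hs
  have hmapN : (D.rootSubgroup F r).map (cj N₀) = D.rootSubgroup F s :=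
    map_cj_gen_singleton hR hκ hconj
  have hmapg : (D.rootSubgroup F r).map (cj g) = (D.rootSubgroup F s).map (cj B₁) := by
    have hcomp : cj g = (cj B₁).comp ((cj N₀).comp (cj B₂)) := by
      apply MonoidHom.ext
      intro x
      simp only [MonoidHom.comp_apply, MulEquiv.coe_toMonoidHom, MulAut.conj_apply, e4]
      group
    rw [hcomp, ← Subgroup.map_map, ← Subgroup.map_map, B_map_X hR hT hr hU hb₂', hmapN]
  have hmap1 : (D.rootSubgroup F r).map (cj B₁) = D.rootSubgroup F r :=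
    B_map_X hR hT hr hU hb₁'
  have hsup : D.rootSubgroup F r ⊔ (D.rootSubgroup F r).map (cj g) =
      (D.rootSubgroup F r ⊔ D.rootSubgroup F s).map (cj B₁) := by
    rw [hmapg, Subgroup.map_sup, hmap1]
  change IsPGroup 2 ↥(D.rootSubgroup F r ⊔ (D.rootSubgroup F r).map (cj g)) ∨
    ∃ h ∈ D.group F, (D.rootSubgroup F r ⊔ (D.rootSubgroup F r).map (cj g)).map (cj h) =
      D.rootSubgroup F r ⊔ D.rootSubgroup F r₀
  rw [hsup]
  by_cases hsneg : (s : ℕ) = D.neg r
  · right
    refine ⟨B₁⁻¹, Subgroup.inv_mem _ b₁.2, ?_⟩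
    rw [Subgroup.map_map, hsneg, hr₀]
    have : (cj (B₁⁻¹)).comp (cj B₁) = MonoidHom.id _ := by
      apply MonoidHom.ext
      intro x
      simp only [MonoidHom.comp_apply, MulEquiv.coe_toMonoidHom, MulAut.conj_apply,
        MonoidHom.id_apply]
      group
    rw [this, Subgroup.map_id]
  · left
    obtain ⟨l, hl, hp1, hp2⟩ := hw s s.isLt hsneg
    -- `U` is a 2-group
    have hUp : IsPGroup 2 ↥(D.posUnipotent F) := by
      obtain ⟨f, hf⟩ := Cfsg.Agent.Lib.ChevOrder.RootPair.card_two_pow (F := F)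
      apply IsPGroup.of_card (n := f * D.posRoots.length)
      rw [Chev.card_U hR hT, hf, pow_mul]
    set A₀ := prodA hR l with hA₀
    obtain ⟨-, κ₁, hκ₁, h1⟩ := prodA_conj hR hT hl hr
    obtain ⟨-, κ₂, hκ₂, h2⟩ := prodA_conj hR hT hl s.isLt
    have hKU : ∀ x ∈ D.rootSubgroup F r ⊔ D.rootSubgroup F s,
        A₀ * x * A₀⁻¹ ∈ D.posUnipotent F := by
      intro x hx
      have hle : D.rootSubgroup F r ⊔ D.rootSubgroup F s ≤
          (D.posUnipotent F).comap (cj A₀) := by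
        refine sup_le ?_ ?_
        · rw [rootSubgroup_eq hR.toAddRel]
          apply gen_le
          intro a ha t
          rw [Set.mem_singleton_iff] at ha
          rw [ha, Subgroup.mem_comap, MulEquiv.coe_toMonoidHom, MulAut.conj_apply, h1]
          exact X_mem_U hR hT hp1 _
        · rw [rootSubgroup_eq hR.toAddRel]
          apply gen_le
          intro a ha t
          rw [Set.mem_singleton_iff] at ha
          rw [ha, Subgroup.mem_comap, MulEquiv.coe_toMonoidHom, MulAut.conj_apply, h2]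
          exact X_mem_U hR hT hp2 _
      exact hle hx
    intro y
    obtain ⟨x, hx, hxy⟩ := y.2
    obtain ⟨k, hk⟩ := hUp ⟨A₀ * x * A₀⁻¹, hKU x hx⟩
    refine ⟨k, ?_⟩
    have h3 : (A₀ * x * A₀⁻¹) ^ 2 ^ k = 1 := congrArg Subtype.val hk
    rw [conj_pow] at h3
    have h4 : x ^ 2 ^ k = 1 := by
      have : A₀ * x ^ 2 ^ k = A₀ := by
        have h5 : A₀ * x ^ 2 ^ k * A₀⁻¹ * A₀ = 1 * A₀ := by rw [h3]
        simpa using h5
      simpa using this
    apply Subtype.ext
    show ((y : GL D.Idx F)) ^ 2 ^ k = 1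
    have h6 : (y : GL D.Idx F) = B₁ * x * B₁⁻¹ := hxy.symm
    rw [h6, conj_pow, h4]
    group

/-- The check of the commuting relations of `X_r` with the positive root subgroups. -/
def checkU (D : ChevalleyDatum) (r : ℕ) : Bool :=
  decide (r < D.nroots) && D.posRoots.all (fun s => s == r || (s != D.neg r &&
      (D.commTerms r s).all (fun c => c.2.1 % 2 == 0)))

/-- The check of the words. -/
def checkWords (D : ChevalleyDatum) (r : ℕ) (W : List (List ℕ)) : Bool :=
  (List.range D.nroots).all fun s => s == D.neg r ||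
    (let l := W.getD s []
     l.all (fun i => decide (i < D.rank)) && D.posRoots.contains (l.foldr D.reflectRoot r) &&
       D.posRoots.contains (l.foldr D.reflectRoot s))

theorem dichotomy_check [Finite F] [CharP F 2]
    (hC : ∀ r < D.nroots, ∀ s < D.nroots, s ≠ r → s ≠ D.neg r →
      Cfsg.Agent.Lib.Chevalley.Comm.CommP D F r s)
    {r r₀ : ℕ} (hr₀ : D.neg r = r₀) (h1 : checkU D r = true) {W : List (List ℕ)}
    (h2 : checkWords D r W = true) {g : GL D.Idx F} (hg : g ∈ D.group F) :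
    IsPGroup 2 ↥(D.rootSubgroup F r ⊔ (D.rootSubgroup F r).map (MulAut.conj g).toMonoidHom) ∨
    ∃ h ∈ D.group F,
      (D.rootSubgroup F r ⊔ (D.rootSubgroup F r).map (MulAut.conj g).toMonoidHom).map
        (MulAut.conj h).toMonoidHom = D.rootSubgroup F r ⊔ D.rootSubgroup F r₀ := by
  simp only [checkU, Bool.and_eq_true, decide_eq_true_eq, List.all_eq_true, Bool.or_eq_true,
    beq_iff_eq, bne_iff_ne, ne_eq] at h1
  obtain ⟨hr, hp⟩ := h1
  refine dichotomy hR hT hr hr₀ ?_ ?_ hg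
  · intro s hs τ c
    by_cases h : s = r
    · subst h
      rw [X_mul, X_mul, add_comm]
    · rcases hp s (mem_posRoots.2 hs) with h' | ⟨h3, h4⟩
      · exact absurd h' h
      · exact X_comm_of_terms hR (hC r hr s hs.1 h h3)
          (fun c hc => commTerm_zero (by simpa using h4 c hc)) _ _
  · intro s hs hne
    simp only [checkWords, List.all_eq_true, Bool.or_eq_true, beq_iff_eq, Bool.and_eq_true,
      decide_eq_true_eq, List.contains_iff_mem] at h2
    rcases h2 s (List.mem_range.2 hs) with h3 | ⟨⟨h3, h4⟩, h5⟩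
    · exact absurd h3 hne
    · exact ⟨_, h3, mem_posRoots.1 h4, mem_posRoots.1 h5⟩

end Cfsg.Agent.Lib.ChevOrder.RootPair
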