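import Cfsg.Agent.Lib.ChevOrder.Level

/-!
The Weyl group `N/H` of a Chevalley group as the Coxeter group of a given matrix, from a check of the
orders of products of two simple reflections on coefficient vectors.
-/

set_option autoImplicit false
set_option linter.unusedSectionVars false

namespace Cfsg.Agent.Lib.ChevOrder.WeylIso

open Cfsg.Lie Cfsg.Agent.Lib.ChevBN.Elem Cfsg.Agent.Lib.ChevBN.Entries Cfsg.Agent.Lib.ChevBN.Table
open Cfsg.Agent.Lib.ChevBN.Rel Cfsg.Agent.Lib.ChevBN.Pair Cfsg.Agent.Lib.ChevBN.Monomial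
open Cfsg.Agent.Lib.BNPair.Basic Cfsg.Agent.Lib.ChevOrder.BNCount
open Cfsg.Agent.Lib.BNPair.CoxeterExchange
open Cfsg.Agent.Lib.ChevOrder.Chev Cfsg.Agent.Lib.ChevOrder.Cox Cfsg.Agent.Lib.ChevOrder.Level

/-- One application of `s_i s_j` on coefficient vectors. -/
def pairStep (D : ChevalleyDatum) (i j : ℕ) (a : List ℤ) : List ℤ := refl D j (refl D i a)

/-- Iterates of `s_i s_j`. -/
def pairIter (D : ChevalleyDatum) (i j : ℕ) : ℕ → List ℤ → List ℤ
  | 0, a => a
  | k + 1, a => pairIter D i j k (pairStep D i j a)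

/-- The check of the order of `s_i s_j`. -/
def ordCheck (D : ChevalleyDatum) (i j m : ℕ) : Bool :=
  decide (0 < m) &&
  (List.range D.rank).all (fun l => decide (pairIter D i j m (basis D l) = basis D l)) &&
  (List.range m).all (fun k => decide (k = 0) ||
    (List.range D.rank).any (fun l => decide (pairIter D i j k (basis D l) ≠ basis D l)))

variable {D : ChevalleyDatum}

theorem length_refl (i : ℕ) (a : List ℤ) : (Cfsg.Agent.Lib.ChevOrder.Level.refl D i a).length = D.rank := by
  simp [Cfsg.Agent.Lib.ChevOrder.Level.refl]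

theorem length_basis (j : ℕ) : (basis D j).length = D.rank := by
  simp [basis]

theorem length_pairIter (i j k : ℕ) (a : List ℤ) (ha : a.length = D.rank) :
    (pairIter D i j k a).length = D.rank := by
  induction k generalizing a with
  | zero => exact ha
  | succ k ih => exact ih _ (length_refl _ _)

variable {F : Type*} [Field F] {η : ℕ → ℕ → ℤ} (hR : Sys D F η) (hT : Tbl D)
include hR hT

/-- An element of the Weyl group acting trivially on the coordinate functionals is trivial. -/
theorem eq_one_of_fix (w : WW (pair hR hT))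
    (h : ∀ l, l < D.rank → ∀ r : Fin D.nroots, cr D (σW hR hT w r) l = cr D r l) : w = 1 := by
  by_contra hw
  have hs := setupW hR hT
  obtain ⟨l, hl, hlen⟩ := hs.ex w
  cases l with
  | nil => exact hw hl.symm
  | cons i l =>
    have h1 : fW hR hT i * w = pr (fW hR hT) l := by
      rw [← hl, pr_cons, ← mul_assoc, hs.sq, one_mul]
    have h2 : LL (pair hR hT) (fW hR hT i * w) < LL (pair hR hT) w := by
      rw [h1, ← hlen]
      have := hs.le l
      simp only [List.length_cons]
      omega
    have h3 := hK hR hT i w h2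
    have h4 := cr_nonpos hT h3 i
    have h5 := h i i.2 (((σW hR hT w)⁻¹) (alphaR hT i))
    have h6 : (σW hR hT w) (((σW hR hT w)⁻¹) (alphaR hT i)) = alphaR hT i := by simp
    rw [h6] at h5
    rw [← h5] at h4
    have h7 : cr D (alphaR hT i) i = 1 := by
      have := hT.coroot_simple i i.2 i i.2
      rw [if_pos rfl] at this
      exact this
    rw [h7] at h4
    omega

theorem σW_injective : Function.Injective (σW hR hT) := by
  rw [injective_iff_map_eq_one]
  intro w hw
  apply eq_one_of_fix hR hT
  intro l _ r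
  rw [hw]
  rfl

theorem func_pair (i j : Fin D.rank) (a : List ℤ) (r : Fin D.nroots) :
    func D a (σW hR hT (fW hR hT i * fW hR hT j) r) = func D (pairStep D i j a) r := by
  rw [map_mul, σW_fW, σW_fW, Equiv.Perm.mul_apply, func_wPerm hT i.2, func_wPerm hT j.2]
  rfl

theorem func_pow (i j : Fin D.rank) (k : ℕ) (a : List ℤ) (r : Fin D.nroots) :
    func D a (σW hR hT ((fW hR hT i * fW hR hT j) ^ k) r) = func D (pairIter D i j k a) r := by
  induction k generalizing a with
  | zero => simp [pairIter]
  | succ k ih =>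
    rw [pow_succ', map_mul, Equiv.Perm.mul_apply, func_pair hR hT, ih]
    rfl

/-- The order of `f_i f_j` from the check. -/
theorem orderOf_of_check (i j : Fin D.rank) {m : ℕ} (h : ordCheck D i j m = true) :
    orderOf (fW hR hT i * fW hR hT j) = m := by
  simp only [ordCheck, Bool.and_eq_true, decide_eq_true_eq, List.all_eq_true, List.mem_range,
    Bool.or_eq_true, List.any_eq_true, decide_not, Bool.not_eq_true', decide_eq_false_iff_not] at h
  obtain ⟨⟨hm, h1⟩, h2⟩ := h
  rw [orderOf_eq_iff hm]
  constructor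
  · apply eq_one_of_fix hR hT
    intro l hl r
    rw [← func_basis hl, ← func_basis hl, func_pow, h1 l hl]
  · intro k hk hk0 he
    rcases h2 k hk with h3 | ⟨l, hl, h3⟩
    · omega
    · apply h3
      apply func_inj hT (length_pairIter _ _ _ _ (length_basis _)) (length_basis _)
      funext r
      rw [← func_pow hR hT, he, map_one]
      rfl

/-- The map from the monomial subgroup in `GL` to the Weyl group. -/
noncomputable def toW : D.monomialSubgroup F →* WW (pair hR hT) :=
  (QuotientGroup.mk' (TT (pair hR hT))).comp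
    { toFun := fun n => ⟨⟨(n : GL D.Idx F), N_le_G hR hT n.2⟩, (mem_PN hR hT).2 n.2⟩
      map_one' := rfl
      map_mul' := fun _ _ => rfl }

theorem toW_surj : Function.Surjective (toW hR hT) := by
  intro w
  obtain ⟨n, rfl⟩ := QuotientGroup.mk_surjective w
  exact ⟨⟨(n : ↥(D.group F)), (mem_PN hR hT).1 n.2⟩, rfl⟩

theorem toW_eq_one_iff (n : D.monomialSubgroup F) :
    toW hR hT n = 1 ↔ (n : GL D.Idx F) ∈ D.diagonalSubgroup F := by
  have h1 : toW hR hT n = 1 ↔ (⟨⟨(n : GL D.Idx F), N_le_G hR hT n.2⟩, (mem_PN hR hT).2 n.2⟩ :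
      ↥(pair hR hT).N) ∈ TT (pair hR hT) := QuotientGroup.eq_one_iff _
  rw [h1, Subgroup.mem_subgroupOf]
  constructor
  · intro h
    have h2 : (n : GL D.Idx F) ∈ D.borelSubgroup F ⊓ D.monomialSubgroup F :=
      ⟨(mem_PB hR hT).1 h.1, n.2⟩
    rwa [B_inf_N hR hT] at h2
  · intro h
    exact ⟨(mem_PB hR hT).2 (H_le_B hR hT h), (mem_PN hR hT).2 n.2⟩

/-- The Weyl group is the Coxeter group of the matrix given by the orders. -/
theorem exists_N_hom {n : ℕ} (M : CoxeterMatrix (Fin n)) (hn : D.rank = n)
    (hM : ∀ i j : Fin D.rank, ordCheck D i j (M (Fin.cast hn i) (Fin.cast hn j)) = true) :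
    ∃ φ : D.monomialSubgroup F →* M.Group, Function.Surjective φ ∧
      φ.ker = (D.diagonalSubgroup F).subgroupOf (D.monomialSubgroup F) ∧
      ∀ (i : Fin n) (g : D.monomialSubgroup F),
        ((g : GL D.Idx F) : Matrix D.Idx D.Idx F) = D.nMat F (D.simple i) 1 → φ g = M.simple i := by
  subst hn
  have hs := setupW hR hT
  have hord : ∀ i j : Fin D.rank, orderOf (fW hR hT i * fW hR hT j) = M i j := fun i j =>
    orderOf_of_check hR hT i j (hM i j)
  obtain ⟨φ₀, hφ₀⟩ := exists_hom hs (g := fun i => M.simple i)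
    (fun i => M.toCoxeterSystem.simple_mul_simple_self i) (fun i j => by
      rw [hord]
      exact M.toCoxeterSystem.simple_mul_simple_pow i j)
  have hlift : M.IsLiftable (fW hR hT) := fun i j => by
    rw [← hord]
    exact pow_orderOf_eq_one _
  let ψ : M.Group →* WW (pair hR hT) := M.toCoxeterSystem.lift ⟨fW hR hT, hlift⟩
  have hψ : ∀ i, ψ (M.simple i) = fW hR hT i := fun i =>
    M.toCoxeterSystem.lift_apply_simple hlift i
  have h1 : φ₀.comp ψ = MonoidHom.id _ := by
    apply M.toCoxeterSystem.ext_simple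
    intro i
    show φ₀ (ψ (M.simple i)) = M.simple i
    rw [hψ, hφ₀]
  have h2 : ∀ w, ψ (φ₀ w) = w := by
    intro w
    obtain ⟨l, rfl, -⟩ := hs.ex w
    induction l with
    | nil => simp
    | cons i l ih => rw [pr_cons, map_mul, map_mul, ih, hφ₀, hψ]
  refine ⟨φ₀.comp (toW hR hT), ?_, ?_, ?_⟩
  · intro x
    obtain ⟨m, hm⟩ := toW_surj hR hT (ψ x)
    refine ⟨m, ?_⟩
    show φ₀ (toW hR hT m) = x
    rw [hm]
    exact congrFun (congrArg DFunLike.coe h1) x
  · ext m
    rw [MonoidHom.mem_ker, Subgroup.mem_subgroupOf]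
    rw [← toW_eq_one_iff hR hT]
    constructor
    · intro h
      have h3 := h2 (toW hR hT m)
      have h4 : φ₀ (toW hR hT m) = 1 := h
      rw [h4, map_one] at h3
      exact h3.symm
    · intro h
      show φ₀ (toW hR hT m) = 1
      rw [h, map_one]
  · intro i g hg
    have h3 : (g : GL D.Idx F) = A hR i := by
      apply Units.ext
      rw [hg, coe_A]
    show φ₀ (toW hR hT g) = M.simple i
    have h4 : toW hR hT g = fW hR hT i := by
      rw [fW, ff]
      show QuotientGroup.mk _ = QuotientGroup.mk _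
      congr 1
      apply Subtype.ext
      apply Subtype.ext
      exact h3
    rw [h4, hφ₀]

end Cfsg.Agent.Lib.ChevOrder.WeylIso
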